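import Mathlib

/-!
# Counting vectors fixed by a maximal subgroup (S5920)
-/

set_option autoImplicit false
set_option linter.unusedSectionVars false
set_option linter.style.haveILetI false

namespace Cfsg.Agent.H942.L7

section Abstract

variable {G : Type*} [Group G] [Finite G] {X : Type*} [MulAction G X]

/-- if elements of `A` that are conjugate under `G` are conjugate under `H` only -/
theorem count_aux (H : Subgroup G) (y : G) (A E : Set X) [Finite ↥A] [Finite ↥E]
    (hA : ∀ a ∈ A, ∀ g : G, g • a ∈ A → g ∈ H)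
    (hE : ∀ m ∈ Subgroup.centralizer ({y} : Set G), ∀ a ∈ A, m • a ∈ E) :
    Nat.card ↥(Subgroup.centralizer ({y} : Set G)) * Nat.card ↥A ≤
      Nat.card ↥(H ⊓ Subgroup.centralizer ({y} : Set G)) * Nat.card ↥E := by
  classical
  rw [← Nat.card_prod, ← Nat.card_prod]
  let Φ : ↥(Subgroup.centralizer ({y} : Set G)) × ↥A → ↥E := fun p => ⟨(p.1 : G) • (p.2 : X), hE _ p.1.2 _ p.2.2⟩
  rcases isEmpty_or_nonempty (↥(Subgroup.centralizer ({y} : Set G)) × ↥A) with h | h
  · rw [Nat.card_of_isEmpty]; exact Nat.zero_le _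
  obtain ⟨r, hr⟩ : ∃ r : ↥E → ↥(Subgroup.centralizer ({y} : Set G)) × ↥A, ∀ p, Φ (r (Φ p)) = Φ p :=
    ⟨Function.invFun Φ, fun p => Function.invFun_eq ⟨p, rfl⟩⟩
  have hr' : ∀ p, (((r (Φ p)).1 : G)) • ((r (Φ p)).2 : X) = (p.1 : G) • (p.2 : X) := fun p =>
    congrArg Subtype.val (hr p)
  have key : ∀ p, ((p.1⁻¹ * (r (Φ p)).1 : ↥(Subgroup.centralizer ({y} : Set G))) : G) ∈
      H ⊓ Subgroup.centralizer ({y} : Set G) := by
    intro p
    refine ⟨hA _ (r (Φ p)).2.2 _ ?_, (p.1⁻¹ * (r (Φ p)).1).2⟩
    have : ((p.1⁻¹ * (r (Φ p)).1 : ↥(Subgroup.centralizer ({y} : Set G))) : G) • ((r (Φ p)).2 : X) = (p.2 : X) := by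
      push_cast
      rw [mul_smul, hr' p, inv_smul_smul]
    rw [this]
    exact p.2.2
  refine Nat.card_le_card_of_injective (fun p => (⟨_, key p⟩, Φ p)) ?_
  intro p q hpq
  rw [Prod.mk.injEq] at hpq
  obtain ⟨h1, h2⟩ := hpq
  rw [Subtype.mk.injEq, h2] at h1
  push_cast at h1
  have h3 : (p.1 : G) = q.1 := inv_injective (mul_right_cancel h1)
  have h4 : (p.1 : G) • (p.2 : X) = (q.1 : G) • (q.2 : X) := congrArg Subtype.val h2
  rw [h3] at h4
  exact Prod.ext (Subtype.ext h3) (Subtype.ext (smul_left_cancel _ h4))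

end Abstract

section Rep

variable {k : Type*} [Field k] {G : Type*} [Group G] [Finite G] {V : Type*} [AddCommGroup V] [Module k V]
  (ρ : Representation k G V)

/-- the stabilizer of `{a, -a}` -/
def stab (a : V) : Subgroup G where
  carrier := {g | ρ g a = a ∨ ρ g a = - a}
  mul_mem' := by
    intro g h hg hh
    have h1 : ρ (g * h) a = ρ g (ρ h a) := by rw [map_mul]; rfl
    show ρ (g * h) a = a ∨ ρ (g * h) a = - a
    rw [h1]
    rcases hh with hh | hh
    · rw [hh]; exact hg
    · rw [hh, map_neg]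
      rcases hg with hg | hg
      · rw [hg]; exact Or.inr rfl
      · rw [hg, neg_neg]; exact Or.inl rfl
  one_mem' := by left; rw [map_one]; rfl
  inv_mem' := by
    intro g hg
    have h1 : ρ g⁻¹ (ρ g a) = a := by
      have : ρ (g⁻¹ * g) a = ρ g⁻¹ (ρ g a) := by rw [map_mul]; rfl
      rw [← this, inv_mul_cancel, map_one]; rfl
    rcases hg with hg | hg
    · left; rw [hg] at h1; exact h1
    · right; rw [hg, map_neg] at h1; rw [← h1, neg_neg]; exact congrArg _ (by rw [h1])

theorem mem_stab {a : V} {g : G} : g ∈ stab ρ a ↔ ρ g a = a ∨ ρ g a = - a := Iff.rfl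

/-- the stabilizer of a vector -/
def fixG (a : V) : Subgroup G where
  carrier := {g | ρ g a = a}
  mul_mem' := by
    intro g h hg hh
    have h1 : ρ (g * h) a = ρ g (ρ h a) := by rw [map_mul]; rfl
    show ρ (g * h) a = a
    rw [h1, show ρ h a = a from hh, show ρ g a = a from hg]
  one_mem' := by show ρ 1 a = a; rw [map_one]; rfl
  inv_mem' := by
    intro g hg
    have h1 : ρ g⁻¹ (ρ g a) = a := by
      have : ρ (g⁻¹ * g) a = ρ g⁻¹ (ρ g a) := by rw [map_mul]; rfl
      rw [← this, inv_mul_cancel, map_one]; rfl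
    show ρ g⁻¹ a = a
    rw [show ρ g a = a from hg] at h1
    exact h1

theorem stab_eq (hG : IsSimpleGroup G) (hc : 2 < Nat.card G) (hfix : ∀ v, (∀ g, ρ g v = v) → v = 0) (H : Subgroup G)
    (hmax : IsCoatom H) {a : V} (ha : a ≠ 0) (hH : H ≤ stab ρ a) : stab ρ a = H := by
  classical
  by_contra hne
  have htop : stab ρ a = ⊤ := hmax.2 _ (lt_of_le_of_ne hH (Ne.symm hne))
  have hall : ∀ g : G, ρ g a = a ∨ ρ g a = - a := fun g => by
    have : g ∈ stab ρ a := by rw [htop]; trivial
    exact this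
  have hmul : ∀ (g h : G) (v : V), ρ (g * h) v = ρ g (ρ h v) := fun g h v => by rw [map_mul]; rfl
  have hnorm : (fixG ρ a).Normal := by
    constructor
    intro f hf g
    have hf' : ρ f a = a := hf
    show ρ (g * f * g⁻¹) a = a
    rw [hmul, hmul]
    have h1 : ρ g (ρ g⁻¹ a) = a := by rw [← hmul, mul_inv_cancel, map_one]; rfl
    rcases hall g⁻¹ with h | h
    · rw [h] at h1 ⊢
      rw [hf', h1]
    · rw [h] at h1 ⊢
      rw [map_neg, hf', h1]
  rcases hG.eq_bot_or_eq_top_of_normal _ hnorm with h | h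
  · -- the group has at most two elements
    have hle : Nat.card G ≤ 2 := by
      by_contra hlt
      have h3 : ∀ g h' : G, g ∉ fixG ρ a → h' ∉ fixG ρ a → g = h' := by
        intro g h' hg hh'
        have e1 : ρ g a = - a := (hall g).resolve_left hg
        have e2 : ρ h'⁻¹ a = - a := by
          refine (hall h'⁻¹).resolve_left fun e => hh' ?_
          have : h'⁻¹ ∈ fixG ρ a := e
          exact (Subgroup.inv_mem_iff _).1 this
        have e3 : g * h'⁻¹ ∈ fixG ρ a := by
          show ρ (g * h'⁻¹) a = a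
          rw [hmul, e2, map_neg, e1, neg_neg]
        rw [h, Subgroup.mem_bot] at e3
        exact mul_inv_eq_one.1 e3
      have : ∃ g h' : G, g ≠ 1 ∧ h' ≠ 1 ∧ g ≠ h' := by
        by_contra hcon
        push Not at hcon
        refine hlt ?_
        rcases exists_or_forall_not (fun g : G => g ≠ 1) with ⟨g, hg⟩ | hnone
        · have : Function.Injective (fun x : G => if x = 1 then (0 : Fin 2) else 1) := by
            intro x y hxy
            simp only at hxy
            by_cases hx : x = 1 <;> by_cases hy : y = 1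
            · rw [hx, hy]
            · simp [hx, hy] at hxy
            · simp [hx, hy] at hxy
            · exact hcon x y hx hy
          have := Nat.card_le_card_of_injective _ this
          simpa using this
        · have : Function.Injective (fun _ : G => (0 : Fin 2)) := by
            intro x y _
            rw [not_not.1 (hnone x), not_not.1 (hnone y)]
          have := Nat.card_le_card_of_injective _ this
          simpa using this
      obtain ⟨g, h', h4, h5, h6⟩ := this
      refine h6 (h3 g h' ?_ ?_)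
      · rw [h, Subgroup.mem_bot]; exact h4
      · rw [h, Subgroup.mem_bot]; exact h5
    omega
  · refine ha (hfix a fun g => ?_)
    have : g ∈ fixG ρ a := by rw [h]; trivial
    exact this

theorem count_max (hG : IsSimpleGroup G) (hc : 2 < Nat.card G) (hfix : ∀ v, (∀ g, ρ g v = v) → v = 0) (H : Subgroup G)
    (hmax : IsCoatom H) (hbot : H ≠ ⊥) (y : G) (A E : Set V) [Finite ↥A] [Finite ↥E]
    (hA : ∀ a ∈ A, a ≠ 0 ∧ ∀ h ∈ H, ρ h a = a ∨ ρ h a = - a)
    (hE : ∀ m ∈ Subgroup.centralizer ({y} : Set G), ∀ a ∈ A, ρ m a ∈ E) :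
    Nat.card ↥(Subgroup.centralizer ({y} : Set G)) * Nat.card ↥A ≤
      Nat.card ↥(H ⊓ Subgroup.centralizer ({y} : Set G)) * Nat.card ↥E := by
  have hmul : ∀ (g h : G) (v : V), ρ (g * h) v = ρ g (ρ h v) := fun g h v => by rw [map_mul]; rfl
  letI : MulAction G V := {
    smul := fun g v => ρ g v
    one_smul := fun v => by show ρ 1 v = v; rw [map_one]; rfl
    mul_smul := fun g h v => hmul g h v }
  have hst : ∀ a ∈ A, stab ρ a = H := fun a ha => stab_eq ρ hG hc hfix H hmax (hA a ha).1 (hA a ha).2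
  have hnorm : ∀ g : G, g ∈ Subgroup.normalizer (H : Set G) → g ∈ H := by
    intro g hg
    by_contra hne
    have hle : H < Subgroup.normalizer (H : Set G) := lt_of_le_of_ne Subgroup.le_normalizer fun h => hne (h ▸ hg)
    have htop := hmax.2 _ hle
    have hN : H.Normal := Subgroup.normalizer_eq_top_iff.1 htop
    rcases hG.eq_bot_or_eq_top_of_normal _ hN with h | h
    · exact hbot h
    · exact hmax.1 h
  refine count_aux H y A E (fun a ha g hg => hnorm g ?_) (fun m hm a ha => hE m hm a ha)
  have hg' : ρ g a ∈ A := hg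
  rw [Subgroup.mem_normalizer_iff]
  intro h
  constructor
  · intro hh
    rw [← hst _ hg', mem_stab]
    rw [← hst _ ha, mem_stab] at hh
    rw [hmul, hmul]
    have h1 : ρ g⁻¹ (ρ g a) = a := by rw [← hmul, inv_mul_cancel, map_one]; rfl
    rw [h1]
    rcases hh with hh | hh
    · left; rw [hh]
    · right; rw [hh, map_neg]
  · intro hh
    rw [← hst _ ha, mem_stab]
    rw [← hst _ hg', mem_stab] at hh
    rw [hmul, hmul] at hh
    have h1 : ρ g⁻¹ (ρ g a) = a := by rw [← hmul, inv_mul_cancel, map_one]; rfl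
    rw [h1] at hh
    have h2 : ∀ v, ρ g⁻¹ (ρ g v) = v := fun v => by rw [← hmul, inv_mul_cancel, map_one]; rfl
    rcases hh with hh | hh
    · left
      have := congrArg (ρ g⁻¹) hh
      rwa [h2, h2] at this
    · right
      have := congrArg (ρ g⁻¹) hh
      rwa [h2, map_neg, h2] at this

end Rep

end Cfsg.Agent.H942.L7
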