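import Mathlib
import Cfsg.Agent.H942.L7.Iface2
import Cfsg.Agent.H942.L7.Val7
import Cfsg.Agent.H942.Core
import Cfsg.Agent.H811.L7.RepS
import Cfsg.Agent.H296.L7.RepH
import Cfsg.Agent.H358.L7.Conj

/-!
# S5920: dimensions of fixed spaces of subgroups of `PGL₂(7)` on the adjoint module of `E₈(3)`
-/

set_option autoImplicit false
set_option linter.unusedSectionVars false
set_option maxRecDepth 100000

namespace Cfsg.Agent.H942.L7

open Equiv Cfsg Cfsg.Lie Cfsg.Agent.H657 IsLocalRing Module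
open Cfsg.Agent.H942.E8Alc Cfsg.Agent.H942.Common Cfsg.Agent.H942.Core
open Cfsg.Agent.H358.L7 (enc mulC enc_inj enc_mul dg dg_enc)

/-- the representation on the adjoint module -/
noncomputable def rep {Q : Type*} [Group Q] (F : Q →* ↥(chevE8.group (ZMod 3))) :
    Representation (ZMod 3) Q (chevE8.Idx → ZMod 3) :=
  ((Matrix.toLinAlgEquiv' : Matrix chevE8.Idx chevE8.Idx (ZMod 3) ≃ₐ[ZMod 3]
    ((chevE8.Idx → ZMod 3) →ₗ[ZMod 3] (chevE8.Idx → ZMod 3))) :
      Matrix chevE8.Idx chevE8.Idx (ZMod 3) →* ((chevE8.Idx → ZMod 3) →ₗ[ZMod 3] (chevE8.Idx → ZMod 3))).comp (mat F)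

theorem rep_apply {Q : Type*} [Group Q] (F : Q →* ↥(chevE8.group (ZMod 3))) (g : Q) (v : chevE8.Idx → ZMod 3) :
    rep F g v = (((F g : ↥(chevE8.group (ZMod 3))) : GL chevE8.Idx (ZMod 3)) :
      Matrix chevE8.Idx chevE8.Idx (ZMod 3)).mulVec v := rfl

theorem rep_trace {Q : Type*} [Group Q] (F : Q →* ↥(chevE8.group (ZMod 3))) (g : Q) :
    LinearMap.trace (ZMod 3) _ (rep F g) = theta F g := by
  show LinearMap.trace (ZMod 3) _ (Matrix.toLin' (mat F g)) = _
  rw [Matrix.trace_toLin'_eq]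
  rfl

section dims

variable {P : Subgroup (Perm (Fin 8))} (F : ↥P →* ↥(chevE8.group (ZMod 3)))

/-- the dimension of the fixed space of a subgroup given by a list of permutations (with codes `KC`) -/
theorem dimK (hDim : Dim) {M : Ideal AlgInt} {V : ValuationSubring ℂ} (hM : IsPModular 3 M) (hV : Above M V)
    [CharP (ResidueField V) 3] (K : List (Perm (Fin 8))) (hK : ∀ x ∈ K, x ∈ P) (KC : List ℕ) (hKC : K.map enc = KC)
    (hnd : KC.Nodup) (h1 : enc 1 ∈ KC)
    (hcl : ∀ a ∈ KC, ∀ b ∈ KC, mulC a b ∈ KC) (hco : KC.length.Coprime 3) (Y : Set (Perm (Fin 8)))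
    (hY : ∀ g, g ∈ Y ↔ g ∈ K) (κ : ℕ → ℕ) (b : ℕ → ℤ)
    (hb : ∀ g : ↥P, (g : Perm (Fin 8)) ∈ K → bc 3 (adj V F) g = b (κ (enc g))) :
    ((KC.map κ).map b).sum = KC.length * (finrank (ZMod 3) ↥(fixS (rep F) Y) : ℤ) := by
  let L : List ↥P := K.attachWith (· ∈ P) hK
  have hmap : L.map Subtype.val = K := List.attachWith_map_subtype_val hK
  have hlenK : K.length = KC.length := by rw [← hKC, List.length_map]
  have hlen : L.length = KC.length := by rw [← hlenK]; exact List.length_attachWith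
  have hmem : ∀ a : ↥P, a ∈ L ↔ (a : Perm (Fin 8)) ∈ K := by
    intro a
    constructor
    · intro h
      rw [← hmap]
      exact List.mem_map_of_mem h
    · intro h
      rw [← hmap] at h
      obtain ⟨a', ha', h2⟩ := List.mem_map.1 h
      rwa [← Subtype.ext h2]
  have hcode : ∀ g : Perm (Fin 8), g ∈ K ↔ enc g ∈ KC := by
    intro g
    rw [← hKC]
    constructor
    · intro h
      exact List.mem_map_of_mem h
    · intro h
      obtain ⟨a', ha', h2⟩ := List.mem_map.1 h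
      rwa [← enc_inj h2]
  have hfix : fixS (rep F) Y = fixL F L := by
    ext v
    constructor
    · intro h g hg
      exact h g ((hY _).2 ((hmem g).1 hg))
    · intro h g hg
      exact h g ((hmem g).2 ((hY _).1 hg))
  have key := hDim M V hM hV ↥P F L
    (List.Nodup.of_map Subtype.val (by rw [hmap]; exact List.Nodup.of_map enc (by rw [hKC]; exact hnd)))
    ((hmem 1).2 ((hcode 1).2 h1))
    (fun a ha a' ha' => (hmem _).2 ((hcode _).2 (by
      have e : enc ((a * a' : ↥P) : Perm (Fin 8)) = mulC (enc a) (enc a') := enc_mul _ _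
      rw [e]
      exact hcl _ ((hcode _).1 ((hmem a).1 ha)) _ ((hcode _).1 ((hmem a').1 ha'))))) (by rw [hlen]; exact hco)
  have h3 : (L.map fun g : ↥P => bc 3 (adj V F) g) = L.map fun g : ↥P => ((b (κ (enc g)) : ℤ) : ℂ) :=
    List.map_congr_left fun g hg => hb g ((hmem g).1 hg)
  have h4 : (L.map fun g : ↥P => ((b (κ (enc g)) : ℤ) : ℂ)) = (((KC.map κ).map b).map fun z : ℤ => (z : ℂ)) := by
    rw [← hKC, ← hmap, List.map_map, List.map_map, List.map_map, List.map_map]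
    rfl
  rw [h3, h4, hlen, ← hfix] at key
  have h5 : ((((KC.map κ).map b).map fun z : ℤ => (z : ℂ))).sum = ((((KC.map κ).map b).sum : ℤ) : ℂ) := by
    generalize (KC.map κ).map b = l
    induction l with
    | nil => simp
    | cons a l ih => rw [List.map_cons, List.sum_cons, List.sum_cons, ih]; push_cast; rfl
  rw [h5] at key
  exact_mod_cast key

end dims

/-! ### lists of the elements of the subgroups -/

def K4a : List (Perm (Fin 8)) := [1, za, za', za * za']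
def K4b : List (Perm (Fin 8)) := [1, zb, zb', zb * zb']
def K8a : List (Perm (Fin 8)) := K4a ++ K4a.map fun z => z * ta
def K8b : List (Perm (Fin 8)) := K4b ++ K4b.map fun z => z * tb
def KU : List (Perm (Fin 8)) := (List.range 7).map fun i => nn ^ i
def K14 : List (Perm (Fin 8)) := KU ++ KU.map fun z => z * g6 ^ 3
def Kc : List (Perm (Fin 8)) := (List.range 4).map fun i => (y8 ^ 2) ^ i
def Ky : List (Perm (Fin 8)) := (List.range 8).map fun i => y8 ^ i
def Yc : Set (Perm (Fin 8)) := {g | ∃ i : ℕ, g = (y8 ^ 2) ^ i}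
def Yy : Set (Perm (Fin 8)) := {g | ∃ i : ℕ, g = y8 ^ i}

/-- the kind of a permutation in terms of the code -/
def kd (a : ℕ) : ℕ :=
  bif Nat.beq a 16434824 then 0 else
    bif Nat.beq (mulC a a) 16434824 then (bif Nat.beq (dg a 7) 7 || Nat.beq (dg a 0) 0 || Nat.beq (dg a 1) 1 ||
      Nat.beq (dg a 2) 2 || Nat.beq (dg a 3) 3 || Nat.beq (dg a 4) 4 || Nat.beq (dg a 5) 5 || Nat.beq (dg a 6) 6
      then 3 else 2) else
    bif Nat.beq (mulC (mulC a a) (mulC a a)) 16434824 then 4 else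
    bif Nat.beq (mulC a (mulC (mulC a a) (mulC (mulC a a) (mulC a a)))) 16434824 then 7 else
    bif Nat.beq (mulC (mulC (mulC a a) (mulC a a)) (mulC (mulC a a) (mulC a a))) 16434824 then 8 else 1

theorem enc1 : enc 1 = 16434824 := by decide +kernel

theorem mem_U7_iff (g : Perm (Fin 8)) : g ∈ U7 ↔ g ∈ KU := by
  unfold KU
  rw [List.mem_map]
  constructor
  · rintro ⟨i, rfl⟩
    refine ⟨i % 7, List.mem_range.2 (Nat.mod_lt _ (by norm_num)), ?_⟩
    exact (pow_eq_pow_mod i (show nn ^ 7 = 1 by decide +kernel)).symm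
  · rintro ⟨i, -, rfl⟩
    exact ⟨i, rfl⟩

theorem mem_Yc_iff (g : Perm (Fin 8)) : g ∈ Yc ↔ g ∈ Kc := by
  unfold Kc
  rw [List.mem_map]
  constructor
  · rintro ⟨i, rfl⟩
    refine ⟨i % 4, List.mem_range.2 (Nat.mod_lt _ (by norm_num)), ?_⟩
    exact (pow_eq_pow_mod i (show (y8 ^ 2) ^ 4 = 1 by decide +kernel)).symm
  · rintro ⟨i, -, rfl⟩
    exact ⟨i, rfl⟩

theorem mem_Yy_iff (g : Perm (Fin 8)) : g ∈ Yy ↔ g ∈ Ky := by
  unfold Ky
  rw [List.mem_map]
  constructor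
  · rintro ⟨i, rfl⟩
    refine ⟨i % 8, List.mem_range.2 (Nat.mod_lt _ (by norm_num)), ?_⟩
    exact (pow_eq_pow_mod i (show y8 ^ 8 = 1 by decide +kernel)).symm
  · rintro ⟨i, -, rfl⟩
    exact ⟨i, rfl⟩

theorem mem_V4a_iff (g : Perm (Fin 8)) : g ∈ V4a ↔ g ∈ K4a := by
  unfold V4a K4a
  simp

theorem mem_V4b_iff (g : Perm (Fin 8)) : g ∈ V4b ↔ g ∈ K4b := by
  unfold V4b K4b
  simp

theorem mem_D8a_iff (g : Perm (Fin 8)) : g ∈ D8a ↔ g ∈ K8a := by
  unfold D8a K8a
  rw [Set.mem_union, List.mem_append, mem_V4a_iff, List.mem_map]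
  refine or_congr Iff.rfl ?_
  constructor
  · rintro ⟨z, hz, rfl⟩
    exact ⟨z, (mem_V4a_iff z).1 hz, rfl⟩
  · rintro ⟨z, hz, rfl⟩
    exact ⟨z, (mem_V4a_iff z).2 hz, rfl⟩

theorem mem_D8b_iff (g : Perm (Fin 8)) : g ∈ D8b ↔ g ∈ K8b := by
  unfold D8b K8b
  rw [Set.mem_union, List.mem_append, mem_V4b_iff, List.mem_map]
  refine or_congr Iff.rfl ?_
  constructor
  · rintro ⟨z, hz, rfl⟩
    exact ⟨z, (mem_V4b_iff z).1 hz, rfl⟩
  · rintro ⟨z, hz, rfl⟩
    exact ⟨z, (mem_V4b_iff z).2 hz, rfl⟩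

theorem mem_D14_iff (g : Perm (Fin 8)) : g ∈ D14 ↔ g ∈ K14 := by
  unfold D14 K14
  rw [List.mem_append, List.mem_map]
  constructor
  · rintro ⟨i, j, rfl⟩
    rw [pow_mul, pow_eq_pow_mod j (show (g6 ^ 3) ^ 2 = 1 by decide +kernel)]
    have h2 : j % 2 = 0 ∨ j % 2 = 1 := by omega
    rcases h2 with h | h
    · left
      rw [h, pow_zero, mul_one, ← mem_U7_iff]
      exact ⟨i, rfl⟩
    · right
      rw [h, pow_one]
      exact ⟨nn ^ i, (mem_U7_iff _).1 ⟨i, rfl⟩, rfl⟩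
  · rintro (h | ⟨z, hz, rfl⟩)
    · obtain ⟨i, rfl⟩ := (mem_U7_iff g).2 h
      exact ⟨i, 0, by simp⟩
    · obtain ⟨i, rfl⟩ := (mem_U7_iff z).2 hz
      exact ⟨i, 1, by simp⟩

end Cfsg.Agent.H942.L7
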