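import Mathlib
import Cfsg.Agent.H942.L7.Dims
import Cfsg.Agent.H942.CB.Val48
import Cfsg.Agent.H89.L7.Grp

/-!
# S5920: values of the Brauer character and dimensions
-/

set_option autoImplicit false
set_option linter.unusedSectionVars false
set_option maxRecDepth 100000

namespace Cfsg.Agent.H942.L7

open Equiv Cfsg Cfsg.Lie Cfsg.Agent.H657 IsLocalRing Module
open Cfsg.Agent.H942.E8Alc Cfsg.Agent.H942.Common Cfsg.Agent.H942.Core Cfsg.Agent.H942.E8Val
open Cfsg.Agent.H358.L7 (enc mulC enc_inj enc_mul dg dg_enc)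

/-! ### codes of the elements of the lists -/

def C4a : List ℕ := [16434824, 7810817, 14522914, 11504724]
def C4b : List ℕ := [16434824, 5706211, 2895165, 8518230]
def C8a : List ℕ := [16434824, 7810817, 14522914, 11504724, 2773435, 1139551, 8435189, 4487406]
def C8b : List ℕ := [16434824, 5706211, 2895165, 8518230, 11789505, 12934684, 571823, 8258418]
def CU : List ℕ := [16434824, 14899409, 14969626, 15240547, 15536556, 15835701, 16135238]
def C14 : List ℕ := [16434824, 14899409, 14969626, 15240547, 15536556, 15835701, 16135238, 15022448, 15321985,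
  15621130, 15917139, 16188060, 16258277, 14722862]
def Cc : List ℕ := [16434824, 8435189, 7810817, 4487406]
def Cy : List ℕ := [16434824, 3137890, 8435189, 13240927, 7810817, 1954708, 4487406, 11607099]

theorem k4a : K4a.map enc = C4a := by decide +kernel
theorem k4b : K4b.map enc = C4b := by decide +kernel
theorem k8a : K8a.map enc = C8a := by decide +kernel
theorem k8b : K8b.map enc = C8b := by decide +kernel
theorem kU : KU.map enc = CU := by decide +kernel
theorem k14 : K14.map enc = C14 := by decide +kernel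
theorem kc : Kc.map enc = Cc := by decide +kernel
theorem ky : Ky.map enc = Cy := by decide +kernel

theorem d4a : C4a.map kd = [0, 2, 2, 2] := by decide +kernel
theorem d4b : C4b.map kd = [0, 2, 2, 2] := by decide +kernel
theorem d8a : C8a.map kd = [0, 2, 2, 2, 2, 2, 4, 4] := by decide +kernel
theorem d8b : C8b.map kd = [0, 2, 2, 2, 2, 4, 2, 4] := by decide +kernel
theorem dU : CU.map kd = [0, 7, 7, 7, 7, 7, 7] := by decide +kernel
theorem d14 : C14.map kd = [0, 7, 7, 7, 7, 7, 7, 3, 3, 3, 3, 3, 3, 3] := by decide +kernel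
theorem dc : Cc.map kd = [0, 4, 2, 4] := by decide +kernel
theorem dy : Cy.map kd = [0, 8, 4, 8, 2, 8, 4, 8] := by decide +kernel

/-- the values of the Brauer character -/
structure Vals {P : Subgroup (Perm (Fin 8))} (F : ↥P →* ↥(chevE8.group (ZMod 3))) (V : ValuationSubring ℂ)
    [CharP (ResidueField V) 3] (β2 β4 β7 : ℤ) : Prop where
  one : bc 3 (adj V F) 1 = 248
  two : ∀ g : ↥P, (g : Perm (Fin 8)) ∈ P168 → g ^ 2 = 1 → g ≠ 1 → bc 3 (adj V F) g = β2
  four : ∀ g : ↥P, g ^ 4 = 1 → g ^ 2 ≠ 1 → bc 3 (adj V F) g = β4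
  sev : ∀ g : ↥P, g ^ 7 = 1 → g ≠ 1 → bc 3 (adj V F) g = β7

/-- the value in terms of the kind -/
def vf (β2 β4 β7 βo β8 : ℤ) (k : ℕ) : ℤ :=
  if k = 0 then 248 else if k = 2 then β2 else if k = 3 then βo else if k = 4 then β4 else if k = 7 then β7 else
    if k = 8 then β8 else 0

section

variable {P : Subgroup (Perm (Fin 8))} {F : ↥P →* ↥(chevE8.group (ZMod 3))} {V : ValuationSubring ℂ}
    [CharP (ResidueField V) 3] {β2 β4 β7 : ℤ}

theorem coe_pow_eq {g : ↥P} {n : ℕ} (h : (g : Perm (Fin 8)) ^ n = 1) : g ^ n = 1 :=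
  Subtype.ext (by push_cast; exact h)

theorem enc_sq (g : Perm (Fin 8)) : enc (g ^ 2) = mulC (enc g) (enc g) := by rw [pow_two, enc_mul]

theorem eq_one_of_enc {g : Perm (Fin 8)} {a : ℕ} (h : enc g = a) (h1 : Nat.beq a 16434824 = true) : g = 1 :=
  enc_inj (by rw [h, enc1]; exact Nat.eq_of_beq_eq_true h1)

theorem ne_one_of_enc {g : Perm (Fin 8)} {a : ℕ} (h : enc g = a) (h1 : Nat.beq a 16434824 = false) : g ≠ 1 := by
  rintro rfl
  rw [enc1] at h
  subst h
  exact absurd h1 (by decide)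

theorem Vals.vf_eq (hv : Vals F V β2 β4 β7) (βo β8 : ℤ) {g : ↥P} (hg : (g : Perm (Fin 8)) ∈ P168)
    (hk : kd (enc g) = 0 ∨ kd (enc g) = 2 ∨ kd (enc g) = 4 ∨ kd (enc g) = 7) :
    bc 3 (adj V F) g = vf β2 β4 β7 βo β8 (kd (enc g)) := by
  have e2 : enc ((g : Perm (Fin 8)) ^ 2) = mulC (enc g) (enc g) := enc_sq _
  have e4 : enc ((g : Perm (Fin 8)) ^ 4) = mulC (mulC (enc g) (enc g)) (mulC (enc g) (enc g)) := by
    rw [show 4 = 2 * 2 by norm_num, pow_mul, enc_sq, e2]
  have e7 : enc ((g : Perm (Fin 8)) ^ 7) = mulC (enc g) (mulC (mulC (enc g) (enc g)) (mulC (mulC (enc g) (enc g))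
      (mulC (enc g) (enc g)))) := by
    rw [← e2, ← enc_mul, ← enc_mul, ← enc_mul, ← pow_add, ← pow_add, ← pow_succ']
  unfold kd at hk ⊢
  cases h1 : Nat.beq (enc g) 16434824 with
  | true =>
    rw [cond_true]
    have : g = 1 := Subtype.ext (eq_one_of_enc rfl h1)
    rw [this, hv.one]
    simp [vf]
  | false =>
    have hg1 : g ≠ 1 := fun e => ne_one_of_enc rfl h1 (congrArg Subtype.val e)
    rw [h1] at hk
    rw [cond_false] at hk ⊢
    cases h2 : Nat.beq (mulC (enc g) (enc g)) 16434824 with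
    | true =>
      rw [h2, cond_true] at hk
      rw [cond_true]
      have h3 := hv.two g hg (coe_pow_eq (eq_one_of_enc e2 h2)) hg1
      cases h4 : (Nat.beq (dg (enc g) 7) 7 || Nat.beq (dg (enc g) 0) 0 || Nat.beq (dg (enc g) 1) 1 ||
        Nat.beq (dg (enc g) 2) 2 || Nat.beq (dg (enc g) 3) 3 || Nat.beq (dg (enc g) 4) 4 ||
        Nat.beq (dg (enc g) 5) 5 || Nat.beq (dg (enc g) 6) 6) with
      | true =>
        rw [h4, cond_true] at hk
        omega
      | false =>
        rw [cond_false, h3]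
        simp [vf]
    | false =>
      have hg2 : g ^ 2 ≠ 1 := fun e => ne_one_of_enc e2 h2 (by
        have := congrArg Subtype.val e; push_cast at this; exact this)
      rw [h2, cond_false] at hk
      rw [cond_false]
      cases h4 : Nat.beq (mulC (mulC (enc g) (enc g)) (mulC (enc g) (enc g))) 16434824 with
      | true =>
        rw [cond_true, hv.four g (coe_pow_eq (eq_one_of_enc e4 h4)) hg2]
        simp [vf]
      | false =>
        rw [h4, cond_false] at hk
        rw [cond_false]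
        cases h7 : Nat.beq (mulC (enc g) (mulC (mulC (enc g) (enc g)) (mulC (mulC (enc g) (enc g))
            (mulC (enc g) (enc g))))) 16434824 with
        | true =>
          rw [cond_true, hv.sev g (coe_pow_eq (eq_one_of_enc e7 h7)) hg1]
          simp [vf]
        | false =>
          rw [h7, cond_false] at hk
          cases h8 : Nat.beq (mulC (mulC (mulC (enc g) (enc g)) (mulC (enc g) (enc g)))
            (mulC (mulC (enc g) (enc g)) (mulC (enc g) (enc g)))) 16434824 with
          | true => rw [h8, cond_true] at hk; omega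
          | false => rw [h8, cond_false] at hk; omega

theorem enc_mem {K : List (Perm (Fin 8))} {KC : List ℕ} (hKC : K.map enc = KC) {g : Perm (Fin 8)} (hg : g ∈ K) :
    enc g ∈ KC := by
  rw [← hKC]
  exact List.mem_map_of_mem hg

theorem Vals.dim (hv : Vals F V β2 β4 β7) (hP : P168 ≤ P) (hDim : Dim) {M : Ideal AlgInt} (hM : IsPModular 3 M)
    (hV : Above M V) (K : List (Perm (Fin 8))) (hK : ∀ x ∈ K, x ∈ P168) (KC : List ℕ) (hKC : K.map enc = KC)
    (hnd : KC.Nodup) (h1 : enc 1 ∈ KC) (hcl : ∀ a ∈ KC, ∀ b ∈ KC, mulC a b ∈ KC) (hco : KC.length.Coprime 3)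
    (Y : Set (Perm (Fin 8))) (hY : ∀ g, g ∈ Y ↔ g ∈ K) (hk : ∀ x ∈ KC, kd x = 0 ∨ kd x = 2 ∨ kd x = 4 ∨ kd x = 7) :
    ((KC.map kd).map (vf β2 β4 β7 0 0)).sum = KC.length * (finrank (ZMod 3) ↥(fixS (rep F) Y) : ℤ) :=
  dimK F hDim hM hV K (fun x hx => hP (hK x hx)) KC hKC hnd h1 hcl hco Y hY kd _
    fun g hg => hv.vf_eq 0 0 (hK _ hg) (hk _ (enc_mem hKC hg))

theorem K4a_mem : ∀ x ∈ K4a, x ∈ P168 := by
  intro x hx
  unfold K4a at hx
  simp only [List.mem_cons, List.not_mem_nil, or_false] at hx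
  rcases hx with rfl | rfl | rfl | rfl
  · exact one_mem _
  · exact H811.L7.za_mem
  · exact H811.L7.za'_mem
  · exact mul_mem H811.L7.za_mem H811.L7.za'_mem

theorem K4b_mem : ∀ x ∈ K4b, x ∈ P168 := by
  intro x hx
  unfold K4b at hx
  simp only [List.mem_cons, List.not_mem_nil, or_false] at hx
  rcases hx with rfl | rfl | rfl | rfl
  · exact one_mem _
  · exact H811.L7.zb_mem
  · exact H811.L7.zb'_mem
  · exact mul_mem H811.L7.zb_mem H811.L7.zb'_mem

theorem K8a_mem : ∀ x ∈ K8a, x ∈ P168 := by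
  intro x hx
  unfold K8a at hx
  rw [List.mem_append, List.mem_map] at hx
  rcases hx with hx | ⟨z, hz, rfl⟩
  · exact K4a_mem x hx
  · exact mul_mem (K4a_mem z hz) H811.L7.ta_mem

theorem K8b_mem : ∀ x ∈ K8b, x ∈ P168 := by
  intro x hx
  unfold K8b at hx
  rw [List.mem_append, List.mem_map] at hx
  rcases hx with hx | ⟨z, hz, rfl⟩
  · exact K4b_mem x hx
  · exact mul_mem (K4b_mem z hz) H811.L7.tb_mem

theorem KU_mem : ∀ x ∈ KU, x ∈ P168 := by
  intro x hx
  unfold KU at hx
  rw [List.mem_map] at hx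
  obtain ⟨i, -, rfl⟩ := hx
  exact pow_mem H811.L7.nn_mem i

theorem Kc_mem (hy : y8 ^ 2 ∈ P168) : ∀ x ∈ Kc, x ∈ P168 := by
  intro x hx
  unfold Kc at hx
  rw [List.mem_map] at hx
  obtain ⟨i, -, rfl⟩ := hx
  exact pow_mem hy i

theorem Vals.V4a (hv : Vals F V β2 β4 β7) (hP : P168 ≤ P) (hDim : Dim) {M : Ideal AlgInt}
    (hM : IsPModular 3 M) (hV : Above M V) :
    248 + 3 * β2 = 4 * (finrank (ZMod 3) ↥(fixS (rep F) V4a) : ℤ) := by
  have h := hv.dim hP hDim hM hV K4a K4a_mem C4a k4a (by decide +kernel) (by rw [enc1]; decide +kernel)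
    (by decide +kernel) (by decide) _ mem_V4a_iff (by decide +kernel)
  rw [d4a, show C4a.length = 4 from rfl] at h
  simp [vf] at h
  linarith

theorem Vals.V4b (hv : Vals F V β2 β4 β7) (hP : P168 ≤ P) (hDim : Dim) {M : Ideal AlgInt}
    (hM : IsPModular 3 M) (hV : Above M V) :
    248 + 3 * β2 = 4 * (finrank (ZMod 3) ↥(fixS (rep F) V4b) : ℤ) := by
  have h := hv.dim hP hDim hM hV K4b K4b_mem C4b k4b (by decide +kernel) (by rw [enc1]; decide +kernel)
    (by decide +kernel) (by decide) _ mem_V4b_iff (by decide +kernel)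
  rw [d4b, show C4b.length = 4 from rfl] at h
  simp [vf] at h
  linarith

theorem Vals.D8a (hv : Vals F V β2 β4 β7) (hP : P168 ≤ P) (hDim : Dim) {M : Ideal AlgInt}
    (hM : IsPModular 3 M) (hV : Above M V) :
    248 + 5 * β2 + 2 * β4 = 8 * (finrank (ZMod 3) ↥(fixS (rep F) D8a) : ℤ) := by
  have h := hv.dim hP hDim hM hV K8a K8a_mem C8a k8a (by decide +kernel) (by rw [enc1]; decide +kernel)
    (by decide +kernel) (by decide) _ mem_D8a_iff (by decide +kernel)
  rw [d8a, show C8a.length = 8 from rfl] at h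
  simp [vf] at h
  linarith

theorem Vals.D8b (hv : Vals F V β2 β4 β7) (hP : P168 ≤ P) (hDim : Dim) {M : Ideal AlgInt}
    (hM : IsPModular 3 M) (hV : Above M V) :
    248 + 5 * β2 + 2 * β4 = 8 * (finrank (ZMod 3) ↥(fixS (rep F) D8b) : ℤ) := by
  have h := hv.dim hP hDim hM hV K8b K8b_mem C8b k8b (by decide +kernel) (by rw [enc1]; decide +kernel)
    (by decide +kernel) (by decide) _ mem_D8b_iff (by decide +kernel)
  rw [d8b, show C8b.length = 8 from rfl] at h
  simp [vf] at h
  linarith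

theorem Vals.U7 (hv : Vals F V β2 β4 β7) (hP : P168 ≤ P) (hDim : Dim) {M : Ideal AlgInt}
    (hM : IsPModular 3 M) (hV : Above M V) :
    248 + 6 * β7 = 7 * (finrank (ZMod 3) ↥(fixS (rep F) U7) : ℤ) := by
  have h := hv.dim hP hDim hM hV KU KU_mem CU kU (by decide +kernel) (by rw [enc1]; decide +kernel)
    (by decide +kernel) (by decide) _ mem_U7_iff (by decide +kernel)
  rw [dU, show CU.length = 7 from rfl] at h
  simp [vf] at h
  linarith

theorem Vals.Yc (hv : Vals F V β2 β4 β7) (hP : P168 ≤ P) (hy : y8 ^ 2 ∈ P168) (hDim : Dim) {M : Ideal AlgInt}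
    (hM : IsPModular 3 M) (hV : Above M V) :
    248 + β2 + 2 * β4 = 4 * (finrank (ZMod 3) ↥(fixS (rep F) Yc) : ℤ) := by
  have h := hv.dim hP hDim hM hV Kc (Kc_mem hy) Cc kc (by decide +kernel) (by rw [enc1]; decide +kernel)
    (by decide +kernel) (by decide) _ mem_Yc_iff (by decide +kernel)
  rw [dc, show Cc.length = 4 from rfl] at h
  simp [vf] at h
  linarith

end

end Cfsg.Agent.H942.L7
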