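import Mathlib
import Cfsg.Agent.H942.L7.Vals

/-!
# S5920: existence of the values; the group `PGL₂(7)`
-/

set_option autoImplicit false
set_option linter.unusedSectionVars false
set_option maxRecDepth 100000

namespace Cfsg.Agent.H942.L7

open Equiv Cfsg Cfsg.Lie Cfsg.Agent.H657 IsLocalRing Module
open Cfsg.Agent.H942.E8Alc Cfsg.Agent.H942.Common Cfsg.Agent.H942.Core Cfsg.Agent.H942.E8Val Cfsg.Agent.H942.CB
open Cfsg.Agent.H358.L7 (enc mulC enc_inj enc_mul dg dg_enc)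

section

variable {P : Subgroup (Perm (Fin 8))} (F : ↥P →* ↥(chevE8.group (ZMod 3))) (V : ValuationSubring ℂ)
    [CharP (ResidueField V) 3]

theorem bc_one' : bc 3 (adj V F) 1 = 248 := by
  obtain ⟨t₁, t₂, t₄, -, h1, -, -, h2, -, -⟩ := val8 V F (g := 1) (one_pow 8)
  rw [h1, h2.1 (map_one F)]
  norm_num

theorem bc_eq_of_conj {g g' : ↥P} (h : ∃ x ∈ P, x⁻¹ * (g : Perm (Fin 8)) * x = g') :
    bc 3 (adj V F) g = bc 3 (adj V F) g' := by
  obtain ⟨x, hx, hx2⟩ := h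
  have : g' = (⟨x, hx⟩ : ↥P)⁻¹ * g * ⟨x, hx⟩ := Subtype.ext (by push_cast; exact hx2.symm)
  rw [this, bc_conj']

theorem enc_y82 : enc (y8 ^ 2) = 8435189 := by decide +kernel
theorem enc_y84 : enc ((y8 ^ 2) ^ 2) = 7810817 := by
  rw [pow_two, enc_mul, enc_y82]
  decide +kernel

theorem y4 : (y8 ^ 2) ^ 4 = 1 := enc_inj (by
  rw [show 4 = 2 * 2 by norm_num, pow_mul, pow_two ((y8 ^ 2) ^ 2), enc_mul, enc_y84, enc1]
  decide +kernel)
theorem y2 : (y8 ^ 2) ^ 2 ≠ 1 := fun e => by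
  have := congrArg enc e
  rw [enc_y84, enc1] at this
  revert this
  decide +kernel

theorem exists_vals (hConj : Conj) (hP : P168 ≤ P) (hP' : P ≤ P336) (hF : Function.Injective F) (hy : y8 ^ 2 ∈ P168) :
    ∃ (β2 β4 β7 : ℤ) (b : ℕ), Vals F V β2 β4 β7 ∧ (β4, β2, b) ∈ B4 ∧ (β7 = 3 ∨ β7 = 52) ∧
      b ≤ Nat.card ↥(Subgroup.centralizer {F ⟨y8 ^ 2, hP hy⟩}) := by
  obtain ⟨hc2, hc4, hc7, -, -⟩ := hConj
  have e4 : (⟨y8 ^ 2, hP hy⟩ : ↥P) ^ 4 = 1 := Subtype.ext (by push_cast; exact y4)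
  have e2 : (⟨y8 ^ 2, hP hy⟩ : ↥P) ^ 2 ≠ 1 := fun e => y2 (by have := congrArg Subtype.val e; push_cast at this; exact this)
  obtain ⟨t₁, t₂, b, hb, h1, h2, hle⟩ := val4T V F (g := ⟨y8 ^ 2, hP hy⟩) e4
    (fun e => e2 (hF (by rw [e, map_one])))
  have n7 : H811.L7.en hP ^ 7 = 1 := H811.L7.n_pow hP
  have n1 : H811.L7.en hP ≠ 1 := fun e => (show nn ≠ 1 by decide +kernel) (congrArg Subtype.val e)
  obtain ⟨t₇, ht7, h7⟩ := val7 V F n7 (fun e => n1 (hF (by rw [e, map_one])))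
  refine ⟨t₂, t₁, t₇, b, ⟨bc_one' F V, ?_, ?_, ?_⟩, hb, ht7, hle⟩
  · intro g hg hg2 hg1
    rw [← h2]
    obtain ⟨x, hx, hx2⟩ := hc2 _ hg (by have := congrArg Subtype.val hg2; push_cast at this; exact this)
      (fun e => hg1 (Subtype.ext e))
    obtain ⟨x', hx', hx2'⟩ := hc2 ((y8 ^ 2) ^ 2) (pow_mem hy 2) (by rw [← pow_mul]; exact y4) y2
    have a1 : bc 3 (adj V F) g = bc 3 (adj V F) (⟨za, hP H811.L7.za_mem⟩ : ↥P) :=
      bc_eq_of_conj F V ⟨x, hP hx, hx2⟩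
    have a2 : bc 3 (adj V F) ((⟨y8 ^ 2, hP hy⟩ : ↥P) ^ 2) = bc 3 (adj V F) (⟨za, hP H811.L7.za_mem⟩ : ↥P) :=
      bc_eq_of_conj F V ⟨x', hP hx', by push_cast; exact hx2'⟩
    rw [a1, a2]
  · intro g hg4 hg2
    rw [← h1]
    obtain ⟨x, hx, hx2⟩ := hc4 _ (hP' g.2) (by have := congrArg Subtype.val hg4; push_cast at this; exact this)
      (fun e => hg2 (Subtype.ext (by push_cast; exact e)))
    exact bc_eq_of_conj F V ⟨x, hP hx, hx2⟩
  · intro g hg7 hg1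
    obtain ⟨x, hx, d, hd, hx2⟩ := hc7 _ (hP' g.2) (by have := congrArg Subtype.val hg7; push_cast at this; exact this)
      (fun e => hg1 (Subtype.ext e))
    rw [← h7 d hd]
    exact bc_eq_of_conj F V ⟨x, hP hx, by rw [hx2]; rfl⟩

end

section pgl

variable (F : ↥P336 →* ↥(chevE8.group (ZMod 3))) (V : ValuationSubring ℂ) [CharP (ResidueField V) 3]

theorem g63_mem : g6 ^ 3 ∈ P336 := H296.L7.R0.2

/-- outer involutions -/
theorem exists_out (hConj : Conj) (hF : Function.Injective F) :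
    ∃ βo : ℤ, (βo = -8 ∨ βo = 24) ∧ ∀ g : ↥P336, (g : Perm (Fin 8)) ∉ P168 → g ^ 2 = 1 → bc 3 (adj V F) g = βo := by
  obtain ⟨-, -, -, -, hco⟩ := hConj
  have r2 : (⟨g6 ^ 3, g63_mem⟩ : ↥P336) ^ 2 = 1 := Subtype.ext (by push_cast; decide +kernel)
  have r8 : (⟨g6 ^ 3, g63_mem⟩ : ↥P336) ^ 8 = 1 := by
    have := congrArg (fun x => x ^ 4) r2
    simp only [one_pow] at this
    rwa [← pow_mul] at this
  have r4 : (⟨g6 ^ 3, g63_mem⟩ : ↥P336) ^ 4 = 1 := by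
    have := congrArg (fun x => x ^ 2) r2
    simp only [one_pow] at this
    rwa [← pow_mul] at this
  have r1 : (⟨g6 ^ 3, g63_mem⟩ : ↥P336) ≠ 1 := fun e => (show g6 ^ 3 ≠ 1 by decide +kernel) (congrArg Subtype.val e)
  obtain ⟨t₁, t₂, t₄, ht, h1, -, -, h2, h3, h4⟩ := val8 V F (g := ⟨g6 ^ 3, g63_mem⟩)
    r8
  have e2 : t₂ = 248 := h3.1 (by rw [r2, map_one])
  have e4 : t₄ = 248 := h4.1 (by rw [r4, map_one])
  have e1 : t₁ ≠ 248 := fun e => r1 (hF (by rw [h2.2 e, map_one]))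
  refine ⟨t₁, ?_, fun g hg hg2 => ?_⟩
  · subst e2 e4
    unfold L8 at ht
    simp only [List.mem_cons, List.not_mem_nil, or_false, Prod.mk.injEq] at ht
    omega
  · obtain ⟨x, hx, hx2⟩ := hco _ g.2 hg (by have := congrArg Subtype.val hg2; push_cast at this; exact this)
    rw [← h1]
    exact bc_eq_of_conj F V ⟨x, hx, hx2⟩

theorem sign_D14 : ∀ i : ℕ, nn ^ i * g6 ^ 3 ∉ P168 := by
  intro i h
  have h1 : Perm.sign (nn ^ i * g6 ^ 3) = 1 := H89.L7.sign_of_mem h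
  rw [map_mul, map_pow, show Perm.sign nn = 1 by decide +kernel, one_pow, one_mul] at h1
  revert h1
  decide +kernel

variable {F V} {β2 β4 β7 : ℤ}

theorem Vals.D14 (hv : Vals F V β2 β4 β7) (hDim : Dim) {M : Ideal AlgInt} (hM : IsPModular 3 M)
    (hV : Above M V) {βo : ℤ} (ho : ∀ g : ↥P336, (g : Perm (Fin 8)) ∉ P168 → g ^ 2 = 1 → bc 3 (adj V F) g = βo) :
    248 + 6 * β7 + 7 * βo = 14 * (finrank (ZMod 3) ↥(fixS (rep F) D14) : ℤ) := by
  have hK : ∀ x ∈ K14, x ∈ P336 := by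
    intro x hx
    unfold K14 at hx
    rw [List.mem_append, List.mem_map] at hx
    rcases hx with hx | ⟨z, hz, rfl⟩
    · exact H296.L7.le_168 (KU_mem x hx)
    · exact mul_mem (H296.L7.le_168 (KU_mem z hz)) g63_mem
  have h := dimK F hDim hM hV K14 hK C14 k14 (by decide +kernel) (by rw [enc1]; decide +kernel)
    (by decide +kernel) (by decide) _ mem_D14_iff kd (vf β2 β4 β7 βo 0) ?_
  · rw [d14, show C14.length = 14 from rfl] at h
    simp [vf] at h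
    linarith
  · intro g hg
    unfold K14 at hg
    rw [List.mem_append, List.mem_map] at hg
    rcases hg with hg | ⟨z, hz, hz2⟩
    · exact hv.vf_eq βo 0 (KU_mem _ hg) ((show ∀ x ∈ CU, kd x = 0 ∨ kd x = 2 ∨ kd x = 4 ∨ kd x = 7 by decide +kernel) _
        (enc_mem kU hg))
    · have hz' := hz
      obtain ⟨i, rfl⟩ := (mem_U7_iff z).2 hz
      have h1 : (g : Perm (Fin 8)) ∉ P168 := by rw [← hz2]; exact sign_D14 i
      have h3 : enc (g : Perm (Fin 8)) = mulC (enc (nn ^ i)) 15022448 := by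
        rw [← hz2, enc_mul, show enc (g6 ^ 3) = 15022448 by decide +kernel]
      have h2 : (g : Perm (Fin 8)) ^ 2 = 1 := by
        refine enc_inj ?_
        rw [enc_sq, h3, enc1]
        exact (show ∀ x ∈ CU, mulC (mulC x 15022448) (mulC x 15022448) = 16434824 by decide +kernel) _ (enc_mem kU hz')
      rw [ho g h1 (coe_pow_eq h2), h3, (show ∀ x ∈ CU, kd (mulC x 15022448) = 3 by decide +kernel) _ (enc_mem kU hz')]
      simp [vf]

theorem Vals.Yy (hv : Vals F V β2 β4 β7) (hy : y8 ∈ P336) (hy2 : y8 ^ 2 ∈ P168) (hDim : Dim) {M : Ideal AlgInt}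
    (hM : IsPModular 3 M) (hV : Above M V) {β8 : ℤ}
    (ho : ∀ d : ℕ, ¬ 2 ∣ d → bc 3 (adj V F) ((⟨y8, hy⟩ : ↥P336) ^ d) = β8) :
    248 + β2 + 2 * β4 + 4 * β8 = 8 * (finrank (ZMod 3) ↥(fixS (rep F) Yy) : ℤ) := by
  have hK : ∀ x ∈ Ky, x ∈ P336 := by
    intro x hx
    unfold Ky at hx
    rw [List.mem_map] at hx
    obtain ⟨i, -, rfl⟩ := hx
    exact pow_mem hy i
  have h := dimK F hDim hM hV Ky hK Cy ky (by decide +kernel) (by rw [enc1]; decide +kernel)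
    (by decide +kernel) (by decide) _ mem_Yy_iff kd (vf β2 β4 β7 0 β8) ?_
  · rw [dy, show Cy.length = 8 from rfl] at h
    simp [vf] at h
    linarith
  · intro g hg
    unfold Ky at hg
    rw [List.mem_map] at hg
    obtain ⟨i, hi, hi2⟩ := hg
    have hi := List.mem_range.1 hi
    by_cases h2 : 2 ∣ i
    · obtain ⟨j, rfl⟩ := h2
      have h3 : (g : Perm (Fin 8)) ∈ P168 := by rw [← hi2, pow_mul]; exact pow_mem hy2 j
      refine hv.vf_eq 0 β8 h3 ?_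
      have h4 : (g : Perm (Fin 8)) ∈ Kc := by
        rw [← mem_Yc_iff]
        exact ⟨j, by rw [← hi2, pow_mul]⟩
      exact (show ∀ x ∈ Cc, kd x = 0 ∨ kd x = 2 ∨ kd x = 4 ∨ kd x = 7 by decide +kernel) _ (enc_mem kc h4)
    · have h3 : g = (⟨y8, hy⟩ : ↥P336) ^ i := Subtype.ext (by push_cast; exact hi2.symm)
      have h4 : kd (enc g) = 8 := by
        obtain ⟨j, rfl⟩ : ∃ j, i = 2 * j + 1 := ⟨i / 2, by omega⟩
        have h5 : enc (g : Perm (Fin 8)) = mulC (enc ((y8 ^ 2) ^ j)) 3137890 := by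
          rw [← hi2, pow_succ, pow_mul, enc_mul, show enc y8 = 3137890 by decide +kernel]
        rw [h5]
        exact (show ∀ x ∈ Cc, kd (mulC x 3137890) = 8 by decide +kernel) _ (enc_mem kc ((mem_Yc_iff _).1 ⟨j, rfl⟩))
      rw [h4, h3, ho i h2]
      simp [vf]

end pgl

end Cfsg.Agent.H942.L7
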