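import Mathlib
import Cfsg.Agent.H942.CB.Val48

/-!
# S5920: numbers
-/

set_option autoImplicit false

namespace Cfsg.Agent.H942.L7

open Cfsg.Agent.H942.CB

theorem pow_ge {x n : ℕ} (h : n ≤ x) : 3 ^ n ≤ 3 ^ x := Nat.pow_le_pow_right (by norm_num) h

/-- the case `PSL₂(7)` -/
theorem num1 {β2 β4 β7 : ℤ} {b : ℕ} (hB : (β4, β2, b) ∈ B4) (h7 : β7 = 3 ∨ β7 = 52) {v v' d e m x A E : ℕ}
    (hv : 248 + 3 * β2 = 4 * (v : ℤ)) (hv' : 248 + 3 * β2 = 4 * (v' : ℤ)) (hd : 248 + 5 * β2 + 2 * β4 = 8 * (d : ℤ))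
    (he : 248 + 6 * β7 = 7 * (e : ℤ)) (hm : 248 + β2 + 2 * β4 = 4 * (m : ℤ))
    (hr : 3 * d + e ≤ v + v' + 3 * x) (hA : A + 1 = 3 ^ x) (hE : E + 1 = 3 ^ m) (hc : b * A ≤ 4 * E) : False := by
  unfold B4 at hB
  simp only [List.mem_cons, List.not_mem_nil, or_false, Prod.mk.injEq] at hB
  have he' : 38 ≤ e := by omega
  rcases hB with ⟨h1, h2, h3⟩ | ⟨h1, h2, h3⟩ | ⟨h1, h2, h3⟩ | ⟨h1, h2, h3⟩ | ⟨h1, h2, h3⟩ | ⟨h1, h2, h3⟩ | ⟨h1, h2, h3⟩ <;>
    subst h1 h2 h3
  · have hm' : m = 60 := by omega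
    have hx := pow_ge (show 2 ≤ x by omega)
    subst hm'
    rw [← hA] at hx
    norm_num at hE hx
    omega
  · have hm' : m = 66 := by omega
    have hx := pow_ge (show 5 ≤ x by omega)
    subst hm'
    rw [← hA] at hx
    norm_num at hE hx
    omega
  · have hm' : m = 64 := by omega
    have hx := pow_ge (show 4 ≤ x by omega)
    subst hm'
    rw [← hA] at hx
    norm_num at hE hx
    omega
  · have hm' : m = 70 := by omega
    have hx := pow_ge (show 7 ≤ x by omega)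
    subst hm'
    rw [← hA] at hx
    norm_num at hE hx
    omega
  · have hm' : m = 82 := by omega
    have hx := pow_ge (show 13 ≤ x by omega)
    subst hm'
    rw [← hA] at hx
    norm_num at hE hx
    omega
  · have hm' : m = 92 := by omega
    have hx := pow_ge (show 18 ≤ x by omega)
    subst hm'
    rw [← hA] at hx
    norm_num at hE hx
    omega
  · have hm' : m = 134 := by omega
    have hx := pow_ge (show 39 ≤ x by omega)
    subst hm'
    rw [← hA] at hx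
    norm_num at hE hx
    omega

/-- convexity -/
theorem conv {a b k l : ℕ} (h : k + l ≤ a + b) (hkl : k ≤ l) (hlk : l ≤ k + 1) : 3 ^ k + 3 ^ l ≤ 3 ^ a + 3 ^ b := by
  by_cases h1 : l ≤ a ∧ k ≤ b
  · have := pow_ge h1.1
    have := pow_ge h1.2
    omega
  by_cases h2 : k ≤ a ∧ l ≤ b
  · have := pow_ge h2.1
    have := pow_ge h2.2
    omega
  have h3 : 3 ^ (l + 1) = 3 * 3 ^ l := by rw [pow_succ, mul_comm]
  have h4 := pow_ge hkl
  have h7 : 0 < 3 ^ a := Nat.pow_pos (by norm_num)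
  have h8 : 0 < 3 ^ b := Nat.pow_pos (by norm_num)
  by_cases h5 : a < k
  · have := pow_ge (show l + 1 ≤ b by omega)
    omega
  by_cases h6 : b < k
  · have := pow_ge (show l + 1 ≤ a by omega)
    omega
  omega

/-- the case `PGL₂(7)`, element of order 4 -/
theorem num2 {β2 β4 β7 : ℤ} {b : ℕ} (hB : (β4, β2, b) ∈ B4) (h7 : β7 = 3 ∨ β7 = 52) {v v' d e m x a c A E : ℕ}
    (hv : 248 + 3 * β2 = 4 * (v : ℤ)) (hv' : 248 + 3 * β2 = 4 * (v' : ℤ)) (hd : 248 + 5 * β2 + 2 * β4 = 8 * (d : ℤ))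
    (he : 248 + 6 * β7 = 7 * (e : ℤ)) (hm : 248 + β2 + 2 * β4 = 4 * (m : ℤ))
    (hr : 3 * d + e ≤ v + v' + 3 * x) (hx : x ≤ a + c) (hA : A + 2 = 3 ^ a + 3 ^ c) (hE : E + 1 = 3 ^ m)
    (hc : b * A ≤ 8 * E) : β2 = -8 ∧ β4 = 0 ∧ β7 = 3 ∧ a ≤ 2 := by
  unfold B4 at hB
  simp only [List.mem_cons, List.not_mem_nil, or_false, Prod.mk.injEq] at hB
  have he' : 38 ≤ e := by omega
  rcases hB with ⟨h1, h2, h3⟩ | ⟨h1, h2, h3⟩ | ⟨h1, h2, h3⟩ | ⟨h1, h2, h3⟩ | ⟨h1, h2, h3⟩ | ⟨h1, h2, h3⟩ | ⟨h1, h2, h3⟩ <;>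
    subst h1 h2 h3
  · have hm' : m = 60 := by omega
    subst hm'
    refine ⟨rfl, rfl, ?_, ?_⟩
    · rcases h7 with h7 | h7
      · exact h7
      · exfalso
        subst h7
        have hx' := conv (show 8 + 8 ≤ a + c by omega) le_rfl (Nat.le_succ _)
        rw [← hA] at hx'
        norm_num at hE hx'
        omega
    · by_contra h8
      have h9 := pow_ge (show 3 ≤ a by omega)
      have h10 := pow_ge (show 0 ≤ c by omega)
      norm_num at hE h9 h10
      omega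
  · exfalso
    have hm' : m = 66 := by omega
    have hx' := conv (show 2 + 3 ≤ a + c by omega) (by norm_num) (by norm_num)
    subst hm'
    rw [← hA] at hx'
    norm_num at hE hx'
    omega
  · exfalso
    have hm' : m = 64 := by omega
    have hx' := conv (show 2 + 2 ≤ a + c by omega) (by norm_num) (by norm_num)
    subst hm'
    rw [← hA] at hx'
    norm_num at hE hx'
    omega
  · exfalso
    have hm' : m = 70 := by omega
    have hx' := conv (show 3 + 4 ≤ a + c by omega) (by norm_num) (by norm_num)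
    subst hm'
    rw [← hA] at hx'
    norm_num at hE hx'
    omega
  · exfalso
    have hm' : m = 82 := by omega
    have hx' := conv (show 6 + 7 ≤ a + c by omega) (by norm_num) (by norm_num)
    subst hm'
    rw [← hA] at hx'
    norm_num at hE hx'
    omega
  · exfalso
    have hm' : m = 92 := by omega
    have hx' := conv (show 9 + 9 ≤ a + c by omega) (by norm_num) (by norm_num)
    subst hm'
    rw [← hA] at hx'
    norm_num at hE hx'
    omega
  · exfalso
    have hm' : m = 134 := by omega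
    have hx' := conv (show 19 + 20 ≤ a + c by omega) (by norm_num) (by norm_num)
    subst hm'
    rw [← hA] at hx'
    norm_num at hE hx'
    omega

/-- the case `PGL₂(7)`, element of order 8 -/
theorem num3 {β8 : ℤ} {b : ℕ} (hB : (β8, b) ∈ B8) {m m4 c A E : ℕ} (hm : 248 - 8 + 0 + 4 * β8 = 8 * (m : ℤ))
    (hm4 : m4 + m ≤ 60) (hA : A + 1 = 3 ^ c) (hE : E + 1 = 3 ^ m4) (hc : b * A ≤ 8 * E) :
    (β8 = 0 ∧ c ≤ 1) ∨ ((β8 = 4 ∨ β8 = 16) ∧ c = 0) := by
  unfold B8 at hB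
  simp only [List.mem_cons, List.not_mem_nil, or_false, Prod.mk.injEq] at hB
  rcases hB with ⟨h1, h2⟩ | ⟨h1, h2⟩ | ⟨h1, h2⟩ <;> subst h1 h2
  · left
    refine ⟨rfl, ?_⟩
    by_contra h
    have h1 := pow_ge (show 2 ≤ c by omega)
    have h2 := pow_ge (show m4 ≤ 30 by omega)
    rw [← hA] at h1
    rw [← hE] at h2
    norm_num at h1 h2
    omega
  · right
    refine ⟨Or.inl rfl, ?_⟩
    by_contra h
    have h1 := pow_ge (show 1 ≤ c by omega)
    have h2 := pow_ge (show m4 ≤ 28 by omega)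
    rw [← hA] at h1
    rw [← hE] at h2
    norm_num at h1 h2
    omega
  · right
    refine ⟨Or.inr rfl, ?_⟩
    by_contra h
    have h1 := pow_ge (show 1 ≤ c by omega)
    have h2 := pow_ge (show m4 ≤ 22 by omega)
    rw [← hA] at h1
    rw [← hE] at h2
    norm_num at h1 h2
    omega

end Cfsg.Agent.H942.L7
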