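import Mathlib
import Cfsg.Agent.H942.L7.Count
import Cfsg.Agent.H942.L7.ExVals
import Cfsg.Agent.H942.L7.Num
import Cfsg.Agent.H893.L7.Cent
import Cfsg.Agent.H358.L7.Conj
import Cfsg.Agent.H451.L7.Dim
import Cfsg.Agent.H834.E8.NoFix
import Cfsg.Agent.H597.E8Form

/-!
# S5920: `E₈(3)` has no maximal subgroup isomorphic to `PSL₂(7)` or `PGL₂(7)`
-/

set_option autoImplicit false
set_option linter.unusedSectionVars false
set_option maxRecDepth 100000

namespace Cfsg.Agent.H942.L7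

open Equiv Cfsg Cfsg.Lie Cfsg.Agent.H657 IsLocalRing Module
open Cfsg.Agent.H942.E8Alc Cfsg.Agent.H942.Common Cfsg.Agent.H942.Core Cfsg.Agent.H942.E8Val Cfsg.Agent.H942.CB

/-- nonzero vectors of a subspace -/
def nz (S : Submodule (ZMod 3) (chevE8.Idx → ZMod 3)) : Set (chevE8.Idx → ZMod 3) := {v | v ∈ S ∧ v ≠ 0}

theorem card_nz (S : Submodule (ZMod 3) (chevE8.Idx → ZMod 3)) : Nat.card ↥(nz S) + 1 = 3 ^ finrank (ZMod 3) ↥S := by
  have h1 : nz S = (S : Set (chevE8.Idx → ZMod 3)) \ {0} := by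
    ext v
    simp [nz]
  have h2 : Nat.card ↥S = 3 ^ finrank (ZMod 3) ↥S := by
    rw [Module.natCard_eq_pow_finrank (K := ZMod 3), Nat.card_zmod]
  have h3 := Set.ncard_sdiff_singleton_add_one (s := (S : Set (chevE8.Idx → ZMod 3))) (a := 0) S.zero_mem (Set.toFinite _)
  rw [← h1] at h3
  rw [← h2]
  exact h3

section

variable {P : Subgroup (Perm (Fin 8))} {F : ↥P →* ↥(chevE8.group (ZMod 3))}

theorem cent_card (hF : Function.Injective F) (y : ↥P) :
    Nat.card ↥(F.range ⊓ Subgroup.centralizer ({F y} : Set ↥(chevE8.group (ZMod 3)))) ≤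
      Nat.card ↥(Subgroup.centralizer ({y} : Set ↥P)) := by
  have hmem : ∀ p : ↥(Subgroup.centralizer ({y} : Set ↥P)), F p ∈
      F.range ⊓ Subgroup.centralizer ({F y} : Set ↥(chevE8.group (ZMod 3))) := by
    intro p
    refine ⟨⟨p, rfl⟩, ?_⟩
    have h := Subgroup.mem_centralizer_singleton_iff.1 p.2
    show F p ∈ Subgroup.centralizer ({F y} : Set ↥(chevE8.group (ZMod 3)))
    rw [Subgroup.mem_centralizer_singleton_iff, ← map_mul, ← map_mul, h]
  refine Nat.card_le_card_of_surjective (fun p => ⟨F p, hmem p⟩) ?_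
  rintro ⟨x, ⟨p, hp⟩, hx⟩
  refine ⟨⟨p, ?_⟩, Subtype.ext hp⟩
  rw [Subgroup.mem_centralizer_singleton_iff]
  apply hF
  have hx' : x ∈ Subgroup.centralizer ({F y} : Set ↥(chevE8.group (ZMod 3))) := hx
  rw [Subgroup.mem_centralizer_singleton_iff, ← hp, ← map_mul, ← map_mul] at hx'
  exact hx'

theorem rep_mul {Q : Type*} [Group Q] (F : Q →* ↥(chevE8.group (ZMod 3))) (g h : Q) (v : chevE8.Idx → ZMod 3) :
    rep F (g * h) v = rep F g (rep F h v) := by
  rw [map_mul]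
  rfl

/-- the representation of the group `E₈(3)` itself -/
noncomputable abbrev rho : Representation (ZMod 3) ↥(chevE8.group (ZMod 3)) (chevE8.Idx → ZMod 3) :=
  rep (MonoidHom.id _)

theorem rep_eq (h : ↥P) (v : chevE8.Idx → ZMod 3) : rep F h v = rho (F h) v := rfl

theorem two_lt (hP : P168 ≤ P) (hF : Function.Injective F) : 2 < Nat.card ↥(chevE8.group (ZMod 3)) := by
  have h1 : Nat.card ↥P168 = 168 := (H893.L7.cent).1
  have h2 : Nat.card ↥P168 ≤ Nat.card ↥P := Nat.card_le_card_of_injective (Subgroup.inclusion hP)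
    (Subgroup.inclusion_injective hP)
  have h3 : Nat.card ↥P ≤ Nat.card ↥(chevE8.group (ZMod 3)) := Nat.card_le_card_of_injective F hF
  omega

theorem range_ne (hP : P168 ≤ P) (hF : Function.Injective F) : F.range ≠ ⊥ := by
  intro h
  have h1 : F (H811.L7.en hP) = 1 := by
    have : F (H811.L7.en hP) ∈ F.range := ⟨_, rfl⟩
    rw [h] at this
    exact this
  have h2 : H811.L7.en hP = 1 := hF (by rw [h1, map_one])
  exact (show nn ≠ 1 by decide +kernel) (congrArg Subtype.val h2)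

theorem cnt (hP : P168 ≤ P) (hF : Function.Injective F) (hmax : IsCoatom F.range) (y : ↥P)
    (A E : Set (chevE8.Idx → ZMod 3))
    (hA : ∀ a ∈ A, a ≠ 0 ∧ ∀ h : ↥P, rep F h a = a ∨ rep F h a = - a)
    (hE : ∀ m ∈ Subgroup.centralizer ({F y} : Set ↥(chevE8.group (ZMod 3))), ∀ a ∈ A, rho m a ∈ E)
    {b n : ℕ} (hb : b ≤ Nat.card ↥(Subgroup.centralizer ({F y} : Set ↥(chevE8.group (ZMod 3)))))
    (hn : Nat.card ↥(Subgroup.centralizer ({y} : Set ↥P)) ≤ n) :
    b * Nat.card ↥A ≤ n * Nat.card ↥E := by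
  obtain ⟨hs, hfix⟩ := H834.E8.noFix
  refine (Nat.mul_le_mul_right _ hb).trans (le_trans ?_ (Nat.mul_le_mul_right _ ((cent_card hF y).trans hn)))
  refine count_max rho hs (two_lt hP hF) (fun v hv => hfix v fun g hg => hv ⟨g, hg⟩) F.range hmax (range_ne hP hF) _ A E
    (fun a ha => ⟨(hA a ha).1, ?_⟩) hE
  rintro h ⟨p, rfl⟩
  exact (hA a ha).2 p

theorem exists_form (F : ↥P →* ↥(chevE8.group (ZMod 3))) :
    ∃ B : LinearMap.BilinForm (ZMod 3) (chevE8.Idx → ZMod 3), B.Nondegenerate ∧ B.IsSymm ∧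
      ∀ g v v', B (rep F g v) (rep F g v') = B v v' := by
  obtain ⟨J, hJ, hdet, hinv⟩ := H597.E8Form.form (ZMod 3)
  refine ⟨Matrix.toBilin' J, ?_, ?_, ?_⟩
  · rw [LinearMap.BilinForm.nondegenerate_toBilin'_iff_det_ne_zero]
    exact hdet.ne_zero
  · constructor
    intro x y
    rw [Matrix.toBilin'_apply', Matrix.toBilin'_apply', Matrix.dotProduct_mulVec,
      ← Matrix.mulVec_transpose, hJ, dotProduct_comm]
  · intro g v w
    have h1 := hinv _ (F g).2
    rw [Matrix.toBilin'_apply', Matrix.toBilin'_apply', rep_apply, rep_apply]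
    conv_rhs => rw [← h1, Matrix.mul_assoc, ← Matrix.mulVec_mulVec, Matrix.dotProduct_mulVec, Matrix.vecMul_transpose,
      ← Matrix.mulVec_mulVec]

/-- vectors fixed by an element -/
theorem fix_pow (g : ↥P) {v : chevE8.Idx → ZMod 3} (h : rep F g v = v) (i : ℕ) : rep F (g ^ i) v = v := by
  induction i with
  | zero => rw [pow_zero, map_one]; rfl
  | succ i ih => rw [pow_succ, rep_mul, h, ih]

theorem mem_Yc {hy : y8 ^ 2 ∈ P} {v : chevE8.Idx → ZMod 3} : v ∈ fixS (rep F) Yc ↔ rep F ⟨y8 ^ 2, hy⟩ v = v := by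
  constructor
  · intro h
    exact h _ ⟨1, (pow_one _).symm⟩
  · intro h g hg
    obtain ⟨i, hi⟩ := hg
    have : g = (⟨y8 ^ 2, hy⟩ : ↥P) ^ i := Subtype.ext (by push_cast; exact hi)
    rw [this]
    exact fix_pow _ h i

theorem mem_Yy {hy : y8 ∈ P} {v : chevE8.Idx → ZMod 3} : v ∈ fixS (rep F) Yy ↔ rep F ⟨y8, hy⟩ v = v := by
  constructor
  · intro h
    exact h _ ⟨1, (pow_one _).symm⟩
  · intro h g hg
    obtain ⟨i, hi⟩ := hg
    have : g = (⟨y8, hy⟩ : ↥P) ^ i := Subtype.ext (by push_cast; exact hi)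
    rw [this]
    exact fix_pow _ h i

/-- the centralizer preserves eigenspaces -/
theorem cent_eig {y : ↥P} {m : ↥(chevE8.group (ZMod 3))}
    (hm : m ∈ Subgroup.centralizer ({F y} : Set ↥(chevE8.group (ZMod 3)))) (v : chevE8.Idx → ZMod 3) :
    rep F y (rho m v) = rho m (rep F y v) := by
  rw [rep_eq, rep_eq, ← rep_mul, ← rep_mul, Subgroup.mem_centralizer_singleton_iff.1 hm]

theorem rho_ne {m : ↥(chevE8.group (ZMod 3))} {v : chevE8.Idx → ZMod 3} (hv : v ≠ 0) : rho m v ≠ 0 := by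
  intro h
  have h1 : rho m⁻¹ (rho m v) = v := by
    rw [← rep_mul, inv_mul_cancel, map_one]
    rfl
  rw [h, map_zero] at h1
  exact hv h1.symm

end

/-- the case `PSL₂(7)` -/
theorem case168 {F : ↥P168 →* ↥(chevE8.group (ZMod 3))} (hF : Function.Injective F) (hmax : IsCoatom F.range) :
    False := by
  obtain ⟨M, V, hM, hV, hchar⟩ := exists_V
  obtain ⟨-, -, hy8, hy2, hny, hc4, -, -⟩ := H893.L7.cent
  obtain ⟨β2, β4, β7, b, hv, hB, h7, hb⟩ := exists_vals F V H358.L7.conj le_rfl H296.L7.le_168 hF hy2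
  have d1 := hv.V4a le_rfl H451.L7.dim hM hV
  have d2 := hv.V4b le_rfl H451.L7.dim hM hV
  have d3 := hv.D8a le_rfl H451.L7.dim hM hV
  have d4 := hv.U7 le_rfl H451.L7.dim hM hV
  have d5 := hv.Yc le_rfl hy2 H451.L7.dim hM hV
  obtain ⟨B, hB1, hB2, hB3⟩ := exists_form F
  have hr := H811.L7.repS (chevE8.Idx → ZMod 3) P168 le_rfl (rep F) B hB1 hB2 hB3
  have hc := cnt le_rfl hF hmax ⟨y8 ^ 2, hy2⟩ (nz (fixS (rep F) P168)) (nz (fixS (rep F) Yc))
    (fun a ha => ⟨ha.2, fun h => Or.inl (ha.1 h h.2)⟩)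
    (fun m hm a ha => ⟨(mem_Yc (hy := hy2)).2 (by rw [cent_eig hm, ha.1 _ hy2]), rho_ne ha.2⟩) hb (hc4 _ rfl)
  exact num1 hB h7 d1 d2 d3 d4 d5 hr (card_nz _) (card_nz _) hc

theorem card_union {S T : Submodule (ZMod 3) (chevE8.Idx → ZMod 3)} (h : S ⊓ T = ⊥) :
    Nat.card ↥(nz S ∪ nz T) + 2 = 3 ^ finrank (ZMod 3) ↥S + 3 ^ finrank (ZMod 3) ↥T := by
  rw [← card_nz, ← card_nz]
  have hd : Disjoint (nz S) (nz T) := by
    rw [Set.disjoint_left]
    intro v hv hv'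
    have : v ∈ S ⊓ T := ⟨hv.1, hv'.1⟩
    rw [h] at this
    exact hv.2 this
  have h1 : (nz S ∪ nz T).ncard = (nz S).ncard + (nz T).ncard := Set.ncard_union_eq hd (Set.toFinite _) (Set.toFinite _)
  have h2 : Nat.card ↥(nz S ∪ nz T) = Nat.card ↥(nz S) + Nat.card ↥(nz T) := h1
  rw [h2]
  ring

theorem eq_zero_of_neg {v : chevE8.Idx → ZMod 3} (h : v = - v) : v = 0 := by
  funext i
  have h1 := congrFun h i
  exact (by decide : ∀ x : ZMod 3, x = - x → x = 0) _ h1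

theorem card_idx : finrank (ZMod 3) (chevE8.Idx → ZMod 3) = 248 := by
  rw [Module.finrank_fintype_fun_eq_card]
  rfl

/-- the case `PGL₂(7)` -/
theorem case336 {F : ↥P336 →* ↥(chevE8.group (ZMod 3))} (hF : Function.Injective F) (hmax : IsCoatom F.range) :
    False := by
  obtain ⟨M, V, hM, hV, hchar⟩ := exists_V
  have hconj := H358.L7.conj
  obtain ⟨-, -, hy8, hy2, hny, -, hc8, hc8'⟩ := H893.L7.cent
  have hP := H296.L7.le_168
  obtain ⟨β2, β4, β7, b, hv, hB, h7, hb⟩ := exists_vals F V hconj hP le_rfl hF hy2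
  obtain ⟨βo, ho1, ho2⟩ := exists_out F V hconj hF
  have d1 := hv.V4a hP H451.L7.dim hM hV
  have d2 := hv.V4b hP H451.L7.dim hM hV
  have d3 := hv.D8a hP H451.L7.dim hM hV
  have d3' := hv.D8b hP H451.L7.dim hM hV
  have d4 := hv.U7 hP H451.L7.dim hM hV
  have d5 := hv.Yc hP hy2 H451.L7.dim hM hV
  have d6 := hv.D14 H451.L7.dim hM hV ho2
  obtain ⟨B, hB1, hB2, hB3⟩ := exists_form F
  have hr := H811.L7.repS (chevE8.Idx → ZMod 3) P336 hP (rep F) B hB1 hB2 hB3
  have hx := H296.L7.dim_168 (rep F)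
  have hr6 : (⟨g6 ^ 3, g63_mem⟩ : ↥P336).1 ∉ P168 := by
    have := sign_D14 0
    rwa [pow_zero, one_mul] at this
  -- the space of invariants and the space of the sign character meet in 0
  have hinf : fixS (rep F) P336 ⊓ antS (rep F) = ⊥ := by
    rw [eq_bot_iff]
    rintro v ⟨h1, h2⟩
    have h3 := h1 ⟨g6 ^ 3, g63_mem⟩ g63_mem
    have h4 := (h2 ⟨g6 ^ 3, g63_mem⟩).2 hr6
    rw [h3] at h4
    exact eq_zero_of_neg h4
  have hc := cnt hP hF hmax ⟨y8 ^ 2, hP hy2⟩ (nz (fixS (rep F) P336) ∪ nz (antS (rep F))) (nz (fixS (rep F) Yc))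
    (fun a ha => by
      rcases ha with ha | ha
      · exact ⟨ha.2, fun h => Or.inl (ha.1 h h.2)⟩
      · refine ⟨ha.2, fun h => ?_⟩
        by_cases h1 : (h : Perm (Fin 8)) ∈ P168
        · exact Or.inl ((ha.1 h).1 h1)
        · exact Or.inr ((ha.1 h).2 h1))
    (fun m hm a ha => by
      have h1 : rep F ⟨y8 ^ 2, hP hy2⟩ a = a := by
        rcases ha with ha | ha
        · exact ha.1 _ (hP hy2)
        · exact (ha.1 _).1 hy2
      have h2 : a ≠ 0 := by
        rcases ha with ha | ha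
        · exact ha.2
        · exact ha.2
      exact ⟨(mem_Yc (hy := hP hy2)).2 (by rw [cent_eig hm, h1]), rho_ne h2⟩) hb (hc8 _ rfl)
  obtain ⟨e2, e4, e7, ha⟩ := num2 hB h7 d1 d2 d3 d4 d5 hr hx (card_union hinf) (card_nz _) hc
  subst e2 e4 e7
  -- the element of order 8
  have y8c : (⟨y8, hy8⟩ : ↥P336) ^ 2 = ⟨y8 ^ 2, hP hy2⟩ := rfl
  have y8d : (⟨y8, hy8⟩ : ↥P336) ^ 4 = (⟨y8 ^ 2, hP hy2⟩ : ↥P336) ^ 2 := by
    rw [← y8c, ← pow_mul]
  have y8e : (⟨y8, hy8⟩ : ↥P336) ^ 8 = 1 := by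
    have : (⟨y8, hy8⟩ : ↥P336) ^ 8 = (⟨y8 ^ 2, hP hy2⟩ : ↥P336) ^ 4 := by
      rw [← y8c, ← pow_mul]
    rw [this]
    exact Subtype.ext (by push_cast; exact y4)
  have c4 : (⟨y8 ^ 2, hP hy2⟩ : ↥P336) ^ 4 = 1 := Subtype.ext (by push_cast; exact y4)
  have c2 : (⟨y8 ^ 2, hP hy2⟩ : ↥P336) ^ 2 ≠ 1 := fun e => y2 (by
    have := congrArg Subtype.val e; push_cast at this; exact this)
  obtain ⟨β8, b8, hB8, t1, t2, t3⟩ := val8T V F (g := ⟨y8, hy8⟩) y8e
    (by rw [y8c, hv.four _ c4 c2]; norm_num)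
    (by
      rw [y8d, hv.two _ (pow_mem hy2 2) (by rw [← pow_mul]; exact c4) c2]
      norm_num)
  have d7 := hv.Yy hy8 hy2 H451.L7.dim hM hV t3
  -- the eigenvalue -1 of the element of order 8
  let T : Submodule (ZMod 3) (chevE8.Idx → ZMod 3) := LinearMap.ker (rep F ⟨y8, hy8⟩ + LinearMap.id)
  have hT : ∀ v, v ∈ T ↔ rep F ⟨y8, hy8⟩ v = - v := by
    intro v
    rw [LinearMap.mem_ker, LinearMap.add_apply, LinearMap.id_apply, add_eq_zero_iff_eq_neg]
  have hTc : T ≤ fixS (rep F) Yc := by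
    intro v hv'
    rw [hT] at hv'
    rw [mem_Yc (hy := hP hy2), ← y8c, pow_two, rep_mul, hv', map_neg, hv', neg_neg]
  have hYc : fixS (rep F) Yy ≤ fixS (rep F) Yc := by
    intro v hv'
    rw [mem_Yy (hy := hy8)] at hv'
    rw [mem_Yc (hy := hP hy2), ← y8c, pow_two, rep_mul, hv', hv']
  have hTi : T ⊓ fixS (rep F) Yy = ⊥ := by
    rw [eq_bot_iff]
    rintro v ⟨h1, h2⟩
    have h1' := (hT v).1 h1
    have h2' := (mem_Yy (hy := hy8)).1 h2
    rw [h2'] at h1'
    exact eq_zero_of_neg h1'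
  have hdim : finrank (ZMod 3) ↥T + finrank (ZMod 3) ↥(fixS (rep F) Yy) ≤ 60 := by
    have h1 := Submodule.finrank_sup_add_finrank_inf_eq T (fixS (rep F) Yy)
    rw [hTi, finrank_bot, add_zero] at h1
    have h2 := Submodule.finrank_mono (sup_le hTc hYc)
    omega
  have hcy := cnt hP hF hmax ⟨y8, hy8⟩ (nz (antS (rep F))) (nz T)
    (fun a ha => ⟨ha.2, fun h => by
        by_cases h1 : (h : Perm (Fin 8)) ∈ P168
        · exact Or.inl ((ha.1 h).1 h1)
        · exact Or.inr ((ha.1 h).2 h1)⟩)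
    (fun m hm a ha => ⟨(hT _).2 (by rw [cent_eig hm, (ha.1 _).2 hny, map_neg]), rho_ne ha.2⟩) t2 (hc8' _ rfl)
  have hfin := num3 hB8 (by linarith) hdim (card_nz _) (card_nz _) hcy
  refine H296.L7.repH (chevE8.Idx → ZMod 3) (rep F) B hB1 hB2 hB3 card_idx (by omega) (by omega) (by omega) (by omega)
    (by omega) (by omega) (β8 : ZMod 3) ?_ ?_ ?_ ?_ ?_ ha (by omega) ?_
  · rcases hfin with ⟨h, -⟩ | ⟨h | h, -⟩
    · left; rw [h]; decide
    · right; rw [h]; decide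
    · right; rw [h]; decide
  · intro g hg hg2
    have h1 : g ^ 2 = 1 := by rw [← hg]; exact pow_orderOf_eq_one g
    have h2 : g ≠ 1 := by rintro rfl; rw [orderOf_one] at hg; omega
    rw [rep_trace, theta_eq F V (by rw [hg]; norm_num) (hv.two g hg2 h1 h2)]
    decide
  · intro g hg
    have h1 : g ^ 4 = 1 := by rw [← hg]; exact pow_orderOf_eq_one g
    have h2 : g ^ 2 ≠ 1 := by
      intro h
      have := orderOf_dvd_of_pow_eq_one h
      rw [hg] at this
      omega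
    rw [rep_trace, theta_eq F V (by rw [hg]; norm_num) (hv.four g h1 h2)]
    decide
  · intro g hg
    have h1 : g ^ 7 = 1 := by rw [← hg]; exact pow_orderOf_eq_one g
    have h2 : g ≠ 1 := by rintro rfl; rw [orderOf_one] at hg; omega
    rw [rep_trace, theta_eq F V (by rw [hg]; norm_num) (hv.sev g h1 h2)]
    decide
  · intro g hg
    have h1 : g ^ 8 = 1 := by
      have := pow_orderOf_eq_one g
      rwa [hg] at this
    have h2 : g ^ 4 ≠ 1 := by
      intro h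
      have := orderOf_dvd_of_pow_eq_one h
      rw [hg] at this
      omega
    obtain ⟨x, hx, d, hd, hx2⟩ := hconj.2.2.2.1 (g : Perm (Fin 8)) g.2
      (by have := congrArg Subtype.val h1; push_cast at this; exact this)
      (fun e => h2 (Subtype.ext (by push_cast; exact e)))
    have h3 : bc 3 (adj V F) g = β8 := by
      rw [← t3 d hd]
      exact bc_eq_of_conj F V ⟨x, hx, by rw [hx2]; rfl⟩
    rw [rep_trace, theta_eq F V (by rw [hg]; norm_num) h3]
  · intro h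
    rcases hfin with ⟨h', -⟩ | ⟨-, h'⟩
    · rw [h'] at h
      exact absurd h (by decide)
    · exact h'

end Cfsg.Agent.H942.L7
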